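import Cfsg.Agent.L0.UN.A

/-! Numerics for rank 3 actions of unitary groups: the constituent `η`. -/

set_option autoImplicit false

namespace Cfsg.Agent.L0.UN

open Cfsg.Agent.H1 Cfsg.Agent.H1.UR

variable {N θ₀ θ f k₁ k₂ μ ρ s β γ q : ℤ} {k : ℕ}

theorem gz (h : SN N θ₀ θ f k₁ k₂ μ ρ s β γ) (θp : 0 < θ) (θ0 : 0 < θ₀) (hf : θ₀ ≤ f) : γ = 0 := by
  have ky := key h
  have a0 := a0 h
  have e3 : f < N - 1 := by
    by_contra hc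
    have : ((β - γ) * s + γ) * (N - 1) ≤ ((β - γ) * s + γ) * f := by gcongr; linarith
    have := mul_pos (by linarith : 0 < f) θp
    linarith
  have := mul_nonneg (by linarith [h.lt] : 0 ≤ β - γ) (by linarith [k1 h] : 0 ≤ k₁)
  have : γ * (N - 1) = θ₀ - (β - γ) * k₁ := by linear_combination γ * h.h1 - h.h5
  have := h.g0
  by_contra hg
  have : 1 ≤ γ := by omega
  nlinarith

theorem zero_facts (h : SN N θ₀ θ f k₁ k₂ μ ρ s β 0) (hq : 3 ≤ q) {m S c w : ℤ}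
    (ha : (q + 1) * ((β - 0) * s + 0) = 1 + m * (c * (q ^ 4 * S)))
    (hw : θ₀ * (q + 1) - θ * (q + 1) = (q ^ 4 - 1) * (q ^ 4 * S) * w) :
    β ∣ 1 + m * (c * (q ^ 4 * S)) ∧ β ∣ θ₀ ∧ β ∣ (q - 1) * (q ^ 2 + 1) * w ∧
      θ * (q + 1) * (1 + m * (c * (q ^ 4 * S))) < β * (q + 1) * (θ₀ * (q + 1)) := by
  have D0 : 0 < q + 1 := by linarith
  refine ⟨⟨(q + 1) * s, by linear_combination -ha⟩, ⟨k₁, by linear_combination h.h5⟩, ?_, ?_⟩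
  · refine IsCoprime.dvd_of_dvd_mul_right (z := q ^ 4 * S) ⟨(q + 1) * s, -m * c, by linear_combination ha⟩
      ⟨k₁ - ρ, mul_left_cancel₀ D0.ne' ?_⟩
    linear_combination (q + 1) * h.h5 - (q + 1) * h.h6 - hw
  · have := mul_lt_mul_of_pos_right (lt_zero h) (mul_pos D0 D0)
    rw [← ha]
    linarith

theorem poly_pos {P : ℤ → Prop} (hq : 3 ≤ q) (h : ∀ v, 0 ≤ v → P (v + 3)) : P q := by
  have := h (q - 3) (by linarith)
  rwa [sub_add_cancel] at this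

set_option maxHeartbeats 800000 in
theorem numE1 {S : ℤ} (h : SN N θ₀ θ f k₁ k₂ μ ρ s β γ) (hq : 3 ≤ q) (hS : S = q ^ 2 ∨ S = q ^ 4 ∨ q ^ 6 ≤ S)
    (hc : ∀ x, IsCoprime (q * (q ^ 4 * S)) (q * x + 1)) (hN : q * (q ^ 4 * S) ∣ N)
    (h0 : θ₀ * (q + 1) = (q ^ 6 * S - 1) * (q ^ 5 * S + 1))
    (hθ : θ * (q + 1) = q ^ 7 * S ^ 2 + q ^ 6 * S - q ^ 5 * S - (q ^ 4 - 1) * q ^ 4 * S - 1)
    (hf : f * ((q ^ 2 - 1) ^ 2 * (q ^ 2 + 1) * (q + 1) * (q ^ 3 + 1)) =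
      q ^ 3 * (q ^ 5 * S + 1) * (q ^ 6 * S - 1) * (q ^ 4 * S - 1) * (S + q)) : False := by
  have qp : 0 < q := by linarith
  have q1 : 0 < q - 1 := by linarith
  have D0 : 0 < q + 1 := by linarith
  have q2 : 3 * q ≤ q ^ 2 := by nlinarith
  have q4 : q ^ 2 ≤ q ^ 4 := pow_le_pow_right₀ (by linarith) (by norm_num)
  have q6 : q ^ 4 ≤ q ^ 6 := pow_le_pow_right₀ (by linarith) (by norm_num)
  have q56 : 3 * q ^ 5 ≤ q ^ 6 := by nlinarith [pow_pos qp 5]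
  have q5 : q ^ 1 ≤ q ^ 5 := pow_le_pow_right₀ (by linarith) (by norm_num)
  have S2 : q ^ 2 ≤ S := by rcases hS with e | e | e <;> linarith
  have Sp : 0 < S := by linarith
  have s4 : 1 < q ^ 4 * S := by nlinarith
  have s5 : 3 * (q ^ 4 * S) ≤ q ^ 5 * S := by nlinarith
  have s6 : 3 * (q ^ 5 * S) ≤ q ^ 6 * S := by nlinarith
  have p6 : 0 < q ^ 6 * S - 1 := by linarith
  have p4 : 0 < q ^ 4 * S - 1 := by linarith
  have pS : 0 < S - q := by linarith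
  have θ1 : q ^ 7 * S * (S - q) ≤ θ * (q + 1) := by linarith
  have θp : 0 < θ := pos_of D0 rfl (lt_of_lt_of_le (by positivity) θ1)
  have θ0 : 0 < θ₀ := pos_of D0 h0 (by positivity)
  have D1 : 0 < q ^ 2 - 1 := by linarith
  obtain rfl : γ = 0 := gz h θp θ0 (by
    refine le_of_mul_le_mul_right (a := (q ^ 2 - 1) ^ 2 * (q ^ 2 + 1) * (q + 1) * (q ^ 3 + 1)) ?_ (by positivity)
    have x1 : (q ^ 2 - 1) ^ 2 * (q ^ 2 + 1) * (q ^ 3 + 1) ≤ q ^ 3 * (q ^ 4 * q ^ 2 - 1) * (q ^ 2 + q) :=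
      poly_pos (P := fun q => (q ^ 2 - 1) ^ 2 * (q ^ 2 + 1) * (q ^ 3 + 1) ≤ q ^ 3 * (q ^ 4 * q ^ 2 - 1) * (q ^ 2 + q)) hq
        fun v hv => sub_nonneg.1 (by ring_nf; positivity)
    have x2 : q ^ 3 * (q ^ 4 * q ^ 2 - 1) * (q ^ 2 + q) ≤ q ^ 3 * (q ^ 4 * S - 1) * (S + q) := by
      gcongr
    calc _ = θ₀ * (q + 1) * ((q ^ 2 - 1) ^ 2 * (q ^ 2 + 1) * (q ^ 3 + 1)) := by ring
      _ ≤ θ₀ * (q + 1) * (q ^ 3 * (q ^ 4 * S - 1) * (S + q)) :=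
        mul_le_mul_of_nonneg_left (x1.trans x2) (by positivity)
      _ = _ := by rw [h0, hf]; ring)
  obtain ⟨m, hm, ha⟩ := a_form' (d := q ^ 3 * (S + q)) (u := θ * (q + 1) + 1) (key h) (a0 h) hq (by linarith)
    (by convert hc (q ^ 9 + q ^ 8 - q ^ 7 - 2 * q ^ 4 + q ^ 3 - q + 1 + q ^ 2 * S) using 1; ring) hN
    ⟨q ^ 6 * S + q - 1, by linear_combination h0⟩ (by ring) hf
    ⟨-q ^ 2 * (S + q) + q ^ 3 * (S + q) * (q ^ 6 * S + q - 1) * (q ^ 4 * S - 1), by ring⟩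
    ⟨q ^ 2 * (q ^ 5 * S + 1) * (q ^ 6 * S - 1) * (q ^ 4 * S - 1) * (S + q) * (q ^ 3 * S + q ^ 2 - q - q ^ 4 + 1),
      by rw [hθ]; ring⟩
  have mp : 0 < m := by linarith
  have bp := h.lt
  obtain ⟨d0, d1, d2, lt⟩ := zero_facts h hq ha (w := q ^ 3 * S + 1) (by rw [h0, hθ]; ring)
  have G : q ^ 6 * S * (S - q) * m < β * (q + 1) * (q ^ 5 * S + 1) := by
    refine lt_of_mul_lt_mul_right (a := q ^ 6 * S) ?_ (by positivity)
    calc _ = q ^ 7 * S * (S - q) * (m * (q * (q ^ 4 * S))) := by ring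
      _ ≤ θ * (q + 1) * (1 + m * (q * (q ^ 4 * S))) := by gcongr; linarith
      _ < _ := lt
      _ ≤ β * (q + 1) * (q ^ 6 * S * (q ^ 5 * S + 1)) := by rw [h0]; gcongr; linarith
      _ = _ := by ring
  have fin : ∀ b, β ≤ b * m → b * (q + 1) * (q ^ 5 * S + 1) ≤ q ^ 6 * S * (S - q) → False := fun b h1 h2 => by
    have : β * (q + 1) * (q ^ 5 * S + 1) ≤ b * m * (q + 1) * (q ^ 5 * S + 1) := by gcongr
    have := mul_le_mul_of_nonneg_right h2 mp.le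
    linarith
  rcases hS with rfl | rfl | hS
  · have e0 : θ₀ = (q - 1) * (q ^ 2 + 1) * (q ^ 4 + 1) * (q ^ 7 + 1) :=
      mul_right_cancel₀ D0.ne' (by rw [h0]; ring)
    rw [e0] at d1
    have d3 : β ∣ (q ^ 4 - 1) * (q ^ 3 - q ^ 2 + 1) :=
      (dvd_sub d1 (d2.mul_left (q ^ 6 + q ^ 2 - q))).trans (dvd_of_eq (by ring))
    have d4 : β ∣ (q ^ 4 - 1) * (q - 1) ^ 2 := (dvd_sub d2 (d3.mul_left q)).trans (dvd_of_eq (by ring))
    have d5 : β ∣ q ^ 4 - 1 :=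
      (dvd_sub (d3.mul_left (2 - q)) (d4.mul_left (1 - (q - 1) - (q - 1) ^ 2))).trans (dvd_of_eq (by ring))
    have d6 : β ∣ q + m := (dvd_sub (d0.mul_left q) (d5.mul_left (m * (q ^ 4 + 1)))).trans (dvd_of_eq (by ring))
    refine fin (q + 1) ((Int.le_of_dvd (by linarith) d6).trans (by nlinarith)) ?_
    exact poly_pos (P := fun q => (q + 1) * (q + 1) * (q ^ 5 * q ^ 2 + 1) ≤ q ^ 6 * q ^ 2 * (q ^ 2 - q)) hq
      fun v hv => sub_nonneg.1 (by ring_nf; positivity)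
  · have e0 : θ₀ = (q ^ 10 - 1) * (q ^ 8 - q ^ 7 + q ^ 6 - q ^ 5 + q ^ 4 - q ^ 3 + q ^ 2 - q + 1) :=
      mul_right_cancel₀ D0.ne' (by rw [h0]; ring)
    rw [e0] at d1
    have d3 : β ∣ (q - 1) * (q ^ 2 + 1) * ((q ^ 3 + 1) * (q - 1)) :=
      (dvd_sub (d1.mul_left ((q - 1) * (q ^ 2 + 1))) (d2.mul_left (q ^ 3 * (q ^ 2 * (q ^ 6 - q ^ 5 + q ^ 4 - q ^ 3 +
        q ^ 2 - q + 1) - (q - 1)) - (q ^ 2 - q + 1) * q ^ 2))).trans (dvd_of_eq (by ring))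
    have d4 : β ∣ (q - 1) * (q ^ 4 - 1) :=
      (dvd_sub (d2.mul_left (q - 1)) (d3.mul_left (q ^ 4 - q))).trans (dvd_of_eq (by ring))
    have d5 : β ∣ (q - 1) * (1 + m * q) :=
      (dvd_sub (d0.mul_left (q - 1)) (d4.mul_left (m * q * (q ^ 4 + 1)))).trans (dvd_of_eq (by ring))
    refine fin ((q - 1) * (q + 1)) ((Int.le_of_dvd (by positivity) d5).trans ?_) ?_
    · rw [mul_assoc]; gcongr; linarith
    · exact poly_pos (P := fun q => (q - 1) * (q + 1) * (q + 1) * (q ^ 5 * q ^ 4 + 1) ≤ q ^ 6 * q ^ 4 * (q ^ 4 - q)) hq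
        fun v hv => sub_nonneg.1 (by ring_nf; positivity)
  · have d3 : β ∣ (q - 1) * (q ^ 2 + 1) * (m * q ^ 2 - 1) :=
      (dvd_sub (d2.mul_left (m * q ^ 2)) (d0.mul_left ((q - 1) * (q ^ 2 + 1)))).trans (dvd_of_eq (by ring))
    have : 0 < m * q ^ 2 - 1 := by nlinarith
    refine fin ((q - 1) * (q ^ 2 + 1) * q ^ 2) ((Int.le_of_dvd (by positivity) d3).trans ?_) ?_
    · rw [mul_assoc _ (q ^ 2)]; gcongr; linarith
    · have x1 : q ^ 6 * S * q ^ 5 ≤ q ^ 6 * S * (S - q) := by gcongr; linarith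
      have x2 : q ^ 6 * 1 ≤ q ^ 6 * (q * S) := by gcongr; nlinarith
      have x3 : 0 ≤ q ^ 2 := by positivity
      linarith

set_option maxHeartbeats 800000 in
theorem numE2 {S : ℤ} (h : SN N θ₀ θ f k₁ k₂ μ ρ s β γ) (hq : 3 ≤ q) (hS : S = 1 ∨ S = q ^ 2 ∨ q ^ 4 ≤ S)
    (hc : ∀ x, IsCoprime (q ^ 2 * (q ^ 4 * S)) (q * x + 1)) (hN : q ^ 2 * (q ^ 4 * S) ∣ N)
    (h0 : θ₀ * (q + 1) = (q ^ 6 * S - 1) * (q ^ 7 * S + 1))
    (hθ : θ * (q + 1) = q ^ 9 * S ^ 2 + q ^ 6 * S - q ^ 7 * S - (q ^ 4 - 1) * q ^ 4 * S - 1)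
    (hf : f * ((q ^ 2 - 1) ^ 2 * (q ^ 2 + 1) * (q + 1) * (q + 1)) =
      q ^ 5 * (q ^ 7 * S + 1) * (q ^ 6 * S - 1) * (q ^ 4 * S - 1) * (q * S + 1)) : False := by
  have qp : 0 < q := by linarith
  have q1 : 0 < q - 1 := by linarith
  have D0 : 0 < q + 1 := by linarith
  have q2 : 3 * q ≤ q ^ 2 := by nlinarith
  have q4 : 3 * q ^ 2 ≤ q ^ 4 := by nlinarith
  have q56 : 3 * q ^ 5 ≤ q ^ 6 := by nlinarith [pow_pos qp 5]
  have q5 : q ^ 2 ≤ q ^ 5 := pow_le_pow_right₀ (by linarith) (by norm_num)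
  have S1 : 1 ≤ S := by rcases hS with e | e | e <;> linarith
  have Sp : 0 < S := by linarith
  have s2 : q ^ 2 ≤ q ^ 2 * S := le_mul_of_one_le_right (by positivity) S1
  have s4 : 1 < q ^ 4 * S := by nlinarith
  have s6 : 3 * (q ^ 4 * S) ≤ q ^ 6 * S := by nlinarith
  have s7 : 3 * (q ^ 6 * S) ≤ q ^ 7 * S := by nlinarith
  have p6 : 0 < q ^ 6 * S - 1 := by linarith
  have p4 : 0 < q ^ 4 * S - 1 := by linarith
  have pS : 0 < q ^ 2 * S - q - 1 := by linarith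
  have θ1 : q ^ 7 * S * (q ^ 2 * S - q - 1) ≤ θ * (q + 1) := by linarith
  have θp : 0 < θ := pos_of D0 rfl (lt_of_lt_of_le (by positivity) θ1)
  have θ0 : 0 < θ₀ := pos_of D0 h0 (by positivity)
  have D1 : 0 < q ^ 2 - 1 := by linarith
  obtain rfl : γ = 0 := gz h θp θ0 (by
    refine le_of_mul_le_mul_right (a := (q ^ 2 - 1) ^ 2 * (q ^ 2 + 1) * (q + 1) * (q + 1)) ?_ (by positivity)
    have x1 : (q ^ 2 - 1) ^ 2 * (q ^ 2 + 1) * (q + 1) ≤ q ^ 5 * (q ^ 4 * 1 - 1) * (q * 1 + 1) :=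
      poly_pos (P := fun q => (q ^ 2 - 1) ^ 2 * (q ^ 2 + 1) * (q + 1) ≤ q ^ 5 * (q ^ 4 * 1 - 1) * (q * 1 + 1)) hq
        fun v hv => sub_nonneg.1 (by ring_nf; positivity)
    have x2 : q ^ 5 * (q ^ 4 * 1 - 1) * (q * 1 + 1) ≤ q ^ 5 * (q ^ 4 * S - 1) * (q * S + 1) := by
      gcongr
    calc _ = θ₀ * (q + 1) * ((q ^ 2 - 1) ^ 2 * (q ^ 2 + 1) * (q + 1)) := by ring
      _ ≤ θ₀ * (q + 1) * (q ^ 5 * (q ^ 4 * S - 1) * (q * S + 1)) :=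
        mul_le_mul_of_nonneg_left (x1.trans x2) (by positivity)
      _ = _ := by rw [h0, hf]; ring)
  obtain ⟨m, hm, ha⟩ := a_form' (d := q ^ 5) (u := θ * (q + 1) + 1) (key h) (a0 h) hq (by linarith)
    (by convert hc (q ^ 7 + 2 * q ^ 6 - q ^ 4 - 2 * q ^ 3 - 2 * q ^ 2 + 2) using 1; ring) hN
    ⟨q ^ 7 * S + 1 - q, by linear_combination h0⟩ (by ring) hf
    ⟨-(q ^ 4 * S + q ^ 3 - 1) + q ^ 5 * (q ^ 7 * S + 1 - q) * (q * S * (q ^ 4 * S + q ^ 3 - 1) - 1), by ring⟩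
    ⟨q ^ 3 * (q ^ 7 * S + 1) * (q ^ 6 * S - 1) * (q ^ 4 * S - 1) * (q * S + 1) * (q ^ 5 * S - q ^ 4 - q ^ 3 + q ^ 2 + 1),
      by rw [hθ]; ring⟩
  have mp : 0 < m := by linarith
  have bp := h.lt
  obtain ⟨d0, d1, d2, lt⟩ := zero_facts h hq ha (w := q ^ 5 * S + 1) (by rw [h0, hθ]; ring)
  have G : (q ^ 2 * S - q - 1) * m < β * (q + 1) := by
    refine lt_of_mul_lt_mul_right (a := q ^ 13 * S ^ 2) ?_ (by positivity)
    calc _ = q ^ 7 * S * (q ^ 2 * S - q - 1) * (m * (q ^ 2 * (q ^ 4 * S))) := by ring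
      _ ≤ θ * (q + 1) * (1 + m * (q ^ 2 * (q ^ 4 * S))) := by gcongr; linarith
      _ < _ := lt
      _ ≤ β * (q + 1) * (q ^ 13 * S ^ 2) := mul_le_mul_of_nonneg_left (by linarith) (by positivity)
  have fin : ∀ b, β ≤ b * m → b * (q + 1) ≤ q ^ 2 * S - q - 1 → False := fun b h1 h2 => by
    have : β * (q + 1) ≤ b * m * (q + 1) := by gcongr
    have := mul_le_mul_of_nonneg_right h2 mp.le
    linarith
  rcases hS with rfl | rfl | hS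
  · have e0 : θ₀ = (q ^ 6 - 1) * (q ^ 6 - q ^ 5 + q ^ 4 - q ^ 3 + q ^ 2 - q + 1) :=
      mul_right_cancel₀ D0.ne' (by rw [h0]; ring)
    rw [e0] at d1
    have d3 : β ∣ (q - 1) * (q ^ 2 + 1) * (q ^ 2 - 1) :=
      (dvd_sub (d1.mul_left ((q - 1) * (q ^ 2 + 1))) (d2.mul_left (q * (q ^ 2 * (q ^ 4 - q ^ 3 +
        q ^ 2 - q + 1) - q + 1) - q ^ 2))).trans (dvd_of_eq (by ring))
    have d4 : β ∣ q ^ 4 - 1 := (dvd_sub d2 (d3.mul_left (q ^ 3 + q))).trans (dvd_of_eq (by ring))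
    have d5 : β ∣ q * (q ^ 2 - 1) :=
      (dvd_sub (d4.mul_left (q ^ 8 - q ^ 7 + q ^ 6 - q ^ 5 + 2 * q ^ 4 - 2 * q ^ 3 + q ^ 2 - q + 1 + q)) d1).trans
        (dvd_of_eq (by ring))
    have d6 : β ∣ q ^ 2 - 1 := (dvd_sub (d5.mul_left (q ^ 3)) (d4.mul_left (q ^ 2 - 1))).trans (dvd_of_eq (by ring))
    have d7 : β ∣ 1 + m := (dvd_sub d0 (d6.mul_left (m * (q ^ 4 + q ^ 2 + 1)))).trans (dvd_of_eq (by ring))
    have l1 := Int.le_of_dvd (by linarith) d7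
    have l2 := Int.le_of_dvd (by linarith : 0 < 1 + m) (⟨β * s - m * (q - 1) * (q ^ 4 + q ^ 2 + 1),
      by linear_combination -ha⟩ : q + 1 ∣ 1 + m)
    have l3 : β * (q + 1) * (θ₀ * (q + 1)) ≤ (1 + m) * (q + 1) * (θ₀ * (q + 1)) := by gcongr
    have l4 := lt.trans_le l3
    rw [h0, hθ] at l4
    obtain ⟨u, rfl⟩ : ∃ u, m = u + q := ⟨m - q, by ring⟩
    have u0 : 0 ≤ u := by linarith
    refine l4.not_ge (poly_pos (P := fun q => (1 + (u + q)) * (q + 1) * ((q ^ 6 * 1 - 1) * (q ^ 7 * 1 + 1)) ≤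
      (q ^ 9 * 1 ^ 2 + q ^ 6 * 1 - q ^ 7 * 1 - (q ^ 4 - 1) * q ^ 4 * 1 - 1) * (1 + (u + q) * (q ^ 2 * (q ^ 4 * 1)))) hq
      fun v hv => sub_nonneg.1 (by ring_nf; positivity))
  · have e0 : θ₀ = (q - 1) * (q ^ 2 + 1) * (q ^ 4 + 1) * (q ^ 9 + 1) :=
      mul_right_cancel₀ D0.ne' (by rw [h0]; ring)
    rw [e0] at d1
    have d3 : β ∣ (q - 1) * (q ^ 4 - 1) :=
      (dvd_sub (d1.mul_left ((q - 1) * (q ^ 2 + 1))) (d2.mul_left (q * (q ^ 2 * (q ^ 6 - q ^ 5 + q ^ 4 - q ^ 3 +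
        q ^ 2 - q + 1) - q + 1) - q ^ 2))).trans (dvd_of_eq (by ring))
    have d4 : β ∣ (q - 1) * (1 + m) :=
      (dvd_sub (d0.mul_left (q - 1)) (d3.mul_left (m * (q ^ 4 + 1)))).trans (dvd_of_eq (by ring))
    refine fin ((q - 1) * 2) ((Int.le_of_dvd (by positivity) d4).trans ?_) (by linarith)
    rw [mul_assoc]; gcongr; linarith
  · have d3 : β ∣ (q - 1) * (q ^ 2 + 1) * (m * q - 1) :=
      (dvd_sub (d2.mul_left (m * q)) (d0.mul_left ((q - 1) * (q ^ 2 + 1)))).trans (dvd_of_eq (by ring))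
    have : 0 < m * q - 1 := by nlinarith
    refine fin ((q - 1) * (q ^ 2 + 1) * q) ((Int.le_of_dvd (by positivity) d3).trans ?_) ?_
    · rw [mul_assoc _ q]; gcongr; linarith
    · have x1 : q ^ 2 * q ^ 4 ≤ q ^ 2 * S := by gcongr
      linarith

theorem cop' (c : ℤ) (n : ℕ) : IsCoprime (q ^ n) (q * c + 1) :=
  IsCoprime.pow_left ⟨-c, 1, by ring⟩

/-- n ≥ 7, constituent η -/
theorem numE {Q t S : ℤ} (h : SN N θ₀ θ f k₁ k₂ μ ρ s β γ) (hq : 3 ≤ q) (hQ : Q = q ^ 2)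
    (ht : (t = q ∧ S = Q ^ (k + 1) ∧ t * Q ^ 2 * S ∣ N) ∨ (t = q ^ 3 ∧ S = Q ^ k ∧ Q ^ 3 * S ∣ N))
    (h0 : θ₀ * (q + 1) = (Q ^ 3 * S - 1) * (t * Q ^ 2 * S + 1))
    (hθ : θ * (q + 1) = t * Q ^ 3 * S ^ 2 + Q ^ 3 * S - t * Q ^ 2 * S - (Q ^ 2 - 1) * Q ^ 2 * S - 1)
    (hf : f * ((Q - 1) ^ 2 * (Q + 1) * (t + Q) * (t + Q ^ 2)) =
      Q * t ^ 2 * (t * Q ^ 2 * S + 1) * (Q ^ 3 * S - 1) * (Q ^ 2 * S - 1) * (t * S + Q)) : False := by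
  subst hQ
  have q0 : q ≠ 0 := by linarith
  rcases ht with ⟨rfl, hS, hN⟩ | ⟨rfl, hS, hN⟩
  · refine numE1 (S := S) h hq ?_ (fun x => by convert cop' x (2 * k + 7) using 1; rw [hS]; ring)
      (by convert hN using 1; ring) (by linear_combination h0) (by linear_combination hθ)
      (mul_left_cancel₀ (pow_ne_zero 2 q0) (by linear_combination hf))
    rw [hS, ← pow_mul]
    rcases k with _ | _ | k
    · exact Or.inl rfl
    · exact Or.inr (Or.inl rfl)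
    · exact Or.inr (Or.inr (pow_le_pow_right₀ (by linarith) (by omega)))
  · refine numE2 (S := S) h hq ?_ (fun x => by convert cop' x (2 * k + 6) using 1; rw [hS]; ring)
      (by convert hN using 1; ring) (by linear_combination h0) (by linear_combination hθ)
      (mul_left_cancel₀ (pow_ne_zero 5 q0) (by linear_combination hf))
    rw [hS, ← pow_mul]
    rcases k with _ | _ | k
    · exact Or.inl (pow_zero _)
    · exact Or.inr (Or.inl rfl)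
    · exact Or.inr (Or.inr (pow_le_pow_right₀ (by linarith) (by omega)))

end Cfsg.Agent.L0.UN
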