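import Cfsg.Agent.H1.URc

/-! Numerics for rank 3 actions of unitary groups: the point constituents. -/

set_option autoImplicit false

namespace Cfsg.Agent.L0.UN

open Cfsg.Agent.H1 Cfsg.Agent.H1.UR

variable {N θ₀ θ f k₁ k₂ μ ρ s β γ q y a : ℤ} {k : ℕ}

theorem key (h : SN N θ₀ θ f k₁ k₂ μ ρ s β γ) :
    ((β - γ) * s + γ) * N = θ₀ + ((β - γ) * s + γ) + f * (θ + ((β - γ) * s + γ)) := by
  linear_combination (-(β - γ)) * h.h4 - h.h5 - f * h.h6 + γ * h.h1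

theorem k1 (h : SN N θ₀ θ f k₁ k₂ μ ρ s β γ) : 1 ≤ k₁ := by
  have := mul_nonneg h.rho.le h.s0
  linarith [h.h2, h.mu]

theorem a0 (h : SN N θ₀ θ f k₁ k₂ μ ρ s β γ) : 0 ≤ (β - γ) * s + γ :=
  add_nonneg (mul_nonneg (by linarith [h.lt]) h.s0) h.g0

theorem a_form (h0 : 0 ≤ a) {M c : ℤ} (hq : 3 ≤ q) (hM : 2 ≤ M) (hc : IsCoprime M c)
    (hd : M ∣ c * ((q + 1) * a - 1)) : ∃ m, 1 ≤ m ∧ (q + 1) * a = 1 + m * M := by
  obtain ⟨m, hm⟩ := hc.dvd_of_dvd_mul_left hd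
  refine ⟨m, ?_, by linarith⟩
  by_contra hc
  rcases (by omega : m = 0 ∨ m ≤ -1) with rfl | h3
  · rcases (by omega : a = 0 ∨ 1 ≤ a) with rfl | h4 <;> nlinarith
  · nlinarith

theorem moore (h : SN N θ₀ θ f k₁ k₂ μ ρ s β γ) : N - 1 ≤ k₁ ^ 2 := by
  have h1 : k₂ * μ = k₁ * (k₁ - 1 - (μ + ρ - s)) := by
    linear_combination h.h3 - μ * h.h1 + h.h2
  have h2 := mul_nonneg (by linarith [k1 h] : 0 ≤ k₁) (by linarith [h.lam] : 0 ≤ μ + ρ - s)
  have h3 := mul_nonneg h.k2 (by linarith [h.mu] : 0 ≤ μ - 1)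
  nlinarith [h.h1]

theorem lt_zero (h : SN N θ₀ θ f k₁ k₂ μ ρ s β 0) : θ * (β * s) < β * θ₀ := by
  have h1 := h.lt
  have h2 : β * θ₀ - θ * (β * s) = β ^ 2 * μ := by
    linear_combination β * h.h5 - β * s * h.h6 + β ^ 2 * h.h2
  have := mul_pos (pow_pos h1 2) (by linarith [h.mu] : 0 < μ)
  linarith

theorem bound (h : SN N θ₀ θ f k₁ k₂ μ ρ s β γ) (hg : γ ≠ 0) (θp : 0 ≤ θ) (fp : 0 ≤ f) :
    4 * (θ ^ 2 * f) ^ 2 ≤ θ₀ ^ 5 := by
  have g1 : 1 ≤ γ := by have := h.g0; omega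
  have k1 := k1 h
  have mo := moore h
  have ky := key h
  have a0 := a0 h
  set M := N - 1 with hM'
  set d := β - γ with hd
  have dp : 0 < d := by linarith [h.lt]
  have hM : 1 ≤ M := by linarith [h.h1, h.k2]
  set z := d * k₁ with hz
  have zp : 0 < z := by positivity
  have e1 : z = θ₀ - γ * M := by linear_combination hz - h.h5 + γ * h.h1
  have e2 : z ≤ θ₀ - M := by nlinarith
  set P := (θ + γ) * (d * s) with hP
  have P0 : 0 ≤ P := by rw [hP, h.h6]; have := h.rho; have := h.s0; positivity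
  have e3 : k₁ * P ≤ z ^ 2 := by
    have : z ^ 2 - k₁ * P = d ^ 2 * k₁ * μ := by
      rw [hP, h.h6, hz]; linear_combination d ^ 2 * k₁ * h.h2
    have := h.mu
    have : 0 ≤ d ^ 2 * k₁ * μ := by positivity
    linarith
  have e4 : M * P ^ 2 ≤ z ^ 4 := by
    calc M * P ^ 2 ≤ k₁ ^ 2 * P ^ 2 := by gcongr
      _ = (k₁ * P) ^ 2 := by ring
      _ ≤ (z ^ 2) ^ 2 := by gcongr
      _ = z ^ 4 := by ring
  have e5 : 4 * (M * z) ≤ θ₀ ^ 2 := by nlinarith [sq_nonneg (θ₀ - 2 * M)]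
  have e6 : z ^ 3 ≤ θ₀ ^ 3 := by gcongr; linarith
  have e7 : θ * f ≤ M * (d * s) := by
    have : M * (d * s) = z + θ * f + f * (d * s + γ) := by rw [e1]; linear_combination ky
    have := mul_nonneg fp a0
    linarith
  have e8 : θ ^ 2 * f ≤ M * P := by
    calc θ ^ 2 * f = θ * (θ * f) := by ring
      _ ≤ (θ + γ) * (M * (d * s)) := by gcongr; linarith
      _ = _ := by ring
  calc 4 * (θ ^ 2 * f) ^ 2 ≤ 4 * (M * P) ^ 2 := by gcongr
    _ = 4 * M * (M * P ^ 2) := by ring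
    _ ≤ 4 * M * z ^ 4 := by gcongr
    _ = 4 * (M * z) * z ^ 3 := by ring
    _ ≤ θ₀ ^ 2 * θ₀ ^ 3 := by gcongr
    _ = θ₀ ^ 5 := by ring

theorem ineq6 {t c : ℤ} (ht : 27 ≤ t) (hc : 3 * c ≤ 4 * t ^ 2) : c * (t + 1) ^ 4 < 4 * (t - 1) ^ 6 := by
  obtain ⟨u, rfl⟩ : ∃ u, t = u + 27 := ⟨t - 27, by ring⟩
  have u0 : 0 ≤ u := by linarith
  have e1 : 3 * c * (u + 27 + 1) ^ 4 ≤ 4 * (u + 27) ^ 2 * (u + 27 + 1) ^ 4 := by gcongr
  have e2 : 0 < 3 * (u + 27 - 1) ^ 6 - (u + 27) ^ 2 * (u + 27 + 1) ^ 4 := by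
    ring_nf
    positivity
  linarith

/-- the special case where `θ₀ = A a` and `θ = C a` -/
theorem special (h : SN N θ₀ θ f k₁ k₂ μ ρ s β 0) {A C : ℤ} (hq : 3 ≤ q) (h0 : θ₀ = A * (β * s)) (h1 : θ = C * (β * s))
    (hA : A = q ^ 2 * C + q ^ 2 - 1) (hC : q ^ 2 ≤ C) (s0 : β * s ≠ 0) : N = A + 1 + f * (C + 1) ∧
      (N = q ^ 2 * (C + 1) * (A + 1) ∨ N ≤ q ^ 4 * (A + 1)) := by
  have bn := h.lt.ne'
  have ky := key h
  have sp : 0 < s := h.s0.lt_of_ne fun e => s0 (by rw [← e, mul_zero])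
  have e3 : k₁ = A * s := mul_left_cancel₀ bn (by linear_combination h0 - h.h5)
  have e4 : ρ = C * s := mul_left_cancel₀ bn (by linear_combination h1 - h.h6)
  have e6 : μ = s * (A - s * C) := by linear_combination e3 - h.h2 - s * e4
  have wp : 0 < A - s * C := pos_of_mul_pos_left (b := s) (by linarith [h.mu]) sp.le
  have q9 : 9 ≤ q ^ 2 := by nlinarith
  have e7 : N * (A - s * C) = s * (q ^ 2 - 1) * ((C + 1) * (A + 1)) := by
    apply mul_left_cancel₀ sp.ne'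
    have := h.h3
    rw [e6, e3, e4] at this
    linear_combination this + s ^ 2 * (A + 1) * hA
  have Np : 0 ≤ N := by linarith [h.h1, h.k2, k1 h]
  have cp : 0 ≤ (C + 1) * (A + 1) := mul_nonneg (by linarith) (by nlinarith)
  refine ⟨mul_left_cancel₀ s0 (by linear_combination ky + h0 + f * h1), ?_⟩
  rcases lt_trichotomy s (q ^ 2) with e | e | e
  · refine Or.inr (le_of_mul_le_mul_right (a := C + 1) ?_ (by linarith))
    calc N * (C + 1) ≤ N * (A - s * C) := by gcongr; nlinarith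
      _ = s * (q ^ 2 - 1) * ((C + 1) * (A + 1)) := e7
      _ ≤ q ^ 2 * q ^ 2 * ((C + 1) * (A + 1)) := by gcongr <;> linarith
      _ = _ := by ring
  · refine Or.inl (mul_right_cancel₀ (by linarith : q ^ 2 - 1 ≠ 0) ?_)
    rw [e] at e7
    linear_combination e7 - N * hA
  · nlinarith

theorem pos_of {x c : ℤ} (hc : 0 < c) {z : ℤ} (h : x * c = z) (hz : 0 < z) : 0 < x :=
  pos_of_mul_pos_right (a := c) (by rw [mul_comm, h]; exact hz) hc.le

/-- the key equation modulo `M` -/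
theorem a_form' {M c d u v : ℤ} (ky : a * N = θ₀ + a + f * (θ + a)) (h0 : 0 ≤ a) (hq : 3 ≤ q) (hM : 2 ≤ M)
    (hc : IsCoprime M (c + d)) (hN : M ∣ N) (h1 : M ∣ θ₀ * (q + 1) + 1) (h2 : θ * (q + 1) = u - 1) (h3 : f * c = v)
    (h4 : M ∣ v - d) (h5 : M ∣ v * u) : ∃ m, 1 ≤ m ∧ (q + 1) * a = 1 + m * M := by
  refine a_form h0 hq hM hc ?_
  have := dvd_sub (dvd_sub (dvd_sub (hN.mul_left (c * (q + 1) * a)) (h1.mul_left c)) h5) (h4.mul_right ((q + 1) * a - 1))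
  exact this.trans (dvd_of_eq (by linear_combination c * (q + 1) * ky + f * c * h2 + (u + (q + 1) * a - 1) * h3))

set_option maxHeartbeats 800000 in
theorem numA' {t ε : ℤ} (h : SN N θ₀ θ f k₁ k₂ μ ρ s β γ) (hq : 3 ≤ q) (hε : ε = 1 ∨ ε = -1)
    (ht : (t = q ^ 3 ∧ γ = 0) ∨ q ^ 4 ≤ t) (hc : IsCoprime (q ^ 2 * t) (q ^ 3 - q - 1))
    (h0 : θ₀ * (q + 1) = (q ^ 3 * t + ε) * (q ^ 2 * t - ε)) (hθ : θ * (q + 1) = (q ^ 2 * t - ε) * (q * t + ε))
    (hf : f * ((q + 1) * (q ^ 2 - 1)) = q ^ 2 * (q ^ 3 * t + ε) * (t - ε)) (hN : q ^ 2 * t ∣ N) : False := by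
  have q2 : 3 * q ≤ q ^ 2 := by nlinarith
  have q3 : 3 * q ^ 2 ≤ q ^ 3 := by nlinarith
  have q4 : 3 * q ^ 3 ≤ q ^ 4 := by nlinarith
  have t3 : q ^ 3 ≤ t := by rcases ht with h | h <;> linarith [h]
  have e2 : ε ^ 2 = 1 := by rcases hε with rfl | rfl <;> norm_num
  have e1 : -1 ≤ ε ∧ ε ≤ 1 := by omega
  have t1 : 3 * t ≤ q * t := by nlinarith
  have t2 : 3 * (q * t) ≤ q ^ 2 * t := by nlinarith
  have t3' : 3 * (q ^ 2 * t) ≤ q ^ 3 * t := by nlinarith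
  have ky := key h
  have qp : 0 < q := by linarith
  have tp : 0 < t := by linarith
  have q1 : 0 < q - 1 := by linarith
  have D0 : 0 < q + 1 := by linarith
  have D1 : 0 < q ^ 2 - 1 := by linarith
  have pA : 0 < q ^ 3 * t + ε := by linarith
  have pB : 0 < q ^ 2 * t - ε := by linarith
  have pC : 0 < q * t + ε := by linarith
  have pE : 0 < t - ε := by linarith
  have θp : 0 < θ := pos_of D0 hθ (by positivity)
  have θ0 : 0 < θ₀ := pos_of D0 h0 (by positivity)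
  have fp : 0 < f := pos_of (mul_pos D0 D1) hf (by positivity)
  obtain ⟨m, hm, ha⟩ := a_form' (c := (q + 1) * (q ^ 2 - 1)) (d := -q ^ 2) (u := θ * (q + 1) + 1) ky (a0 h) hq (by linarith)
    (by convert hc using 1; ring) hN ⟨q ^ 3 * t + ε - ε * q, by linear_combination h0 - e2⟩ (by ring) hf
    ⟨q ^ 3 * t - ε * q ^ 3 + ε, by linear_combination -q ^ 2 * e2⟩
    ⟨(q ^ 3 * t + ε) * (t - ε) * (q ^ 3 * t + ε * q ^ 2 - ε * q),
      by linear_combination q ^ 2 * (q ^ 3 * t + ε) * (t - ε) * (hθ - e2)⟩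
  have mp : 0 < m := by linarith
  by_cases hg : γ = 0
  · subst hg
    have lt := lt_zero h
    have bp := h.lt
    simp only [sub_zero, add_zero] at ha
    have d1 : β ∣ (q - 1) * (q ^ 2 * t - ε) := by
      have : (q - 1) * (q ^ 2 * t - ε) = ε * (q ^ 2 * θ - θ₀) :=
        mul_right_cancel₀ D0.ne' (by linear_combination (-ε * q ^ 2) * hθ + ε * h0 - (q ^ 2 - 1) * (q ^ 2 * t - ε) * e2)
      exact ⟨ε * (q ^ 2 * ρ - k₁), by linear_combination this + ε * q ^ 2 * h.h6 - ε * h.h5⟩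
    have d2 : β ∣ (q - 1) * (1 + ε * m) := by
      have := dvd_sub ((Dvd.intro _ rfl : β ∣ β * s).mul_left ((q - 1) * (q + 1))) (d1.mul_left m)
      exact this.trans (dvd_of_eq (by linear_combination (q - 1) * ha))
    by_cases hs : 1 + ε * m = 0
    · obtain ⟨rfl, rfl⟩ : ε = -1 ∧ m = 1 := by rcases hε with rfl | rfl <;> omega
      obtain ⟨n1, n2⟩ := special h (A := q ^ 3 * t - 1) (C := q * t - 1) hq
        (mul_right_cancel₀ D0.ne' (by linear_combination h0 - (q ^ 3 * t - 1) * ha))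
        (mul_right_cancel₀ D0.ne' (by linear_combination hθ - (q * t - 1) * ha)) (by ring) (by linarith)
        (fun e => by rw [e] at ha; linarith)
      rcases n2 with n2 | n2
      · have x1 : f = q ^ 2 * (q ^ 3 * t - 1) := mul_right_cancel₀ (by linarith : q * t ≠ 0) (by linear_combination n2 - n1)
        have x2 : (q + 1) * (q ^ 2 - 1) = t + 1 :=
          mul_left_cancel₀ fp.ne' (by linear_combination hf - (t + 1) * x1)
        rcases ht with ⟨e, -⟩ | e <;> nlinarith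
      · have x1 : f ≤ q ^ 6 := le_of_mul_le_mul_right (a := q * t) (by linarith) (by linarith)
        have x2 : (q + 1) * (q ^ 2 - 1) ≤ 2 * q ^ 3 := by nlinarith
        have x3 : f * ((q + 1) * (q ^ 2 - 1)) ≤ q ^ 6 * (2 * q ^ 3) := by gcongr
        have x4 : q ^ 2 * (2 * (q ^ 2 * q ^ 3)) * q ^ 3 < q ^ 2 * (q ^ 3 * t + -1) * (t - -1) := by
          have : q ^ 2 * q ^ 3 ≤ q ^ 2 * t := by gcongr
          gcongr <;> linarith
        have x5 : q ^ 9 ≤ q ^ 10 := pow_le_pow_right₀ (by linarith) (by norm_num)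
        linarith
    · have l1 : β ≤ (q - 1) * (2 * m) := by
        refine (Int.le_of_dvd (abs_pos.2 (mul_ne_zero (by linarith) hs)) ((dvd_abs _ _).2 d2)).trans ?_
        rw [abs_mul, abs_of_pos (by linarith : 0 < q - 1)]
        gcongr
        rcases hε with rfl | rfl <;> rw [abs_le] <;> constructor <;> linarith
      have l2 : (q * t + ε) * (1 + m * (q ^ 2 * t)) < β * (q + 1) * (q ^ 3 * t + ε) := by
        refine lt_of_mul_lt_mul_right (a := q ^ 2 * t - ε) ?_ pB.le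
        have := mul_lt_mul_of_pos_right lt (mul_pos D0 D0)
        calc _ = θ * (β * s) * ((q + 1) * (q + 1)) := by rw [← ha]; linear_combination (-(q + 1) * (β * s)) * hθ
          _ < _ := this
          _ = _ := by linear_combination β * (q + 1) * h0
      have l3 : β * (q + 1) * (q ^ 3 * t + ε) ≤ (q - 1) * (2 * m) * (q + 1) * (q ^ 3 * t + 1) := by gcongr; exact e1.2
      have l4 : (q * t - 1) * (m * (q ^ 2 * t)) ≤ (q * t + ε) * (1 + m * (q ^ 2 * t)) := by gcongr <;> linarith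
      have l5 : (q * t - 1) * (q ^ 2 * t) < 2 * (q ^ 2 - 1) * (q ^ 3 * t + 1) :=
        lt_of_mul_lt_mul_left (a := m) (by linarith) (by linarith)
      have l6 : q ^ 3 * t * (3 * q ^ 2) ≤ q ^ 3 * t * t := by gcongr; linarith
      have l7 : q ^ 3 * t * 9 ≤ q ^ 3 * t * q ^ 2 := by gcongr; linarith
      have l8 : q ^ 2 * 1 ≤ q ^ 2 * t := by gcongr; linarith
      linarith
  · have t4 : q ^ 4 ≤ t := ht.elim (fun e => absurd e.2 hg) id
    have bd := bound h hg θp.le fp.le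
    have b1 : 4 * ((q * t + ε) ^ 4 * q ^ 4 * (t - ε) ^ 2) ≤
        (q ^ 3 * t + ε) ^ 3 * (q ^ 2 * t - ε) * ((q + 1) * (q ^ 2 - 1) ^ 2) := by
      refine le_of_mul_le_mul_right (a := (q ^ 2 * t - ε) ^ 4 * (q ^ 3 * t + ε) ^ 2) ?_ (by positivity)
      calc _ = 4 * (((q ^ 2 * t - ε) * (q * t + ε)) ^ 2 * (q ^ 2 * (q ^ 3 * t + ε) * (t - ε))) ^ 2 := by ring
        _ = 4 * (θ ^ 2 * f) ^ 2 * ((q + 1) ^ 6 * (q ^ 2 - 1) ^ 2) := by rw [← hθ, ← hf]; ring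
        _ ≤ θ₀ ^ 5 * ((q + 1) ^ 6 * (q ^ 2 - 1) ^ 2) := by gcongr
        _ = (θ₀ * (q + 1)) ^ 5 * ((q + 1) * (q ^ 2 - 1) ^ 2) := by ring
        _ = _ := by rw [h0]; ring
    have b2 : 4 * ((q * (t - 1)) ^ 4 * q ^ 4 * (t - 1) ^ 2) ≤ 4 * ((q * t + ε) ^ 4 * q ^ 4 * (t - ε) ^ 2) := by
      gcongr <;> nlinarith
    have b3 : (q ^ 3 * t + ε) ^ 3 * (q ^ 2 * t - ε) * ((q + 1) * (q ^ 2 - 1) ^ 2) ≤
        (q ^ 3 * (t + 1)) ^ 3 * (q ^ 2 * (t + 1)) * ((q + 1) * (q ^ 2) ^ 2) := by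
      gcongr <;> linarith
    have b4 := ineq6 (t := t) (c := q ^ 7 * (q + 1)) (by linarith) (by
      have : (q ^ 4) ^ 2 ≤ t ^ 2 := by gcongr
      have : q ^ 7 * 3 ≤ q ^ 7 * q := by gcongr
      linarith)
    have b5 := mul_lt_mul_of_pos_left b4 (by positivity : 0 < q ^ 8)
    linarith

set_option maxHeartbeats 800000 in
theorem numB' {t ε : ℤ} (h : SN N θ₀ θ f k₁ k₂ μ ρ s β γ) (hq : 3 ≤ q)
    (ht : (t = q ^ 3 ∧ ε = -1) ∨ (q ^ 4 ≤ t ∧ (ε = 1 ∨ ε = -1))) (hc : IsCoprime (q ^ 2 * t) (q ^ 2 - q - 1))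
    (h0 : θ₀ * (q + 1) = (q ^ 3 * t + ε) * (q ^ 2 * t - ε)) (hθ : θ * (q + 1) = (q ^ 3 * t + ε) * (t - ε))
    (hf : f * ((q + 1) * (q ^ 2 - 1)) = q ^ 3 * (q ^ 2 * t - ε) * (q * t + ε)) (hN : q ^ 2 * t ∣ N) : False := by
  have q2 : 3 * q ≤ q ^ 2 := by nlinarith
  have q3 : 3 * q ^ 2 ≤ q ^ 3 := by nlinarith
  have q4 : 3 * q ^ 3 ≤ q ^ 4 := by nlinarith
  have t3 : q ^ 3 ≤ t := by rcases ht with h | h <;> linarith [h.1]
  have hε : ε = 1 ∨ ε = -1 := ht.elim (fun e => Or.inr e.2) (·.2)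
  have e2 : ε ^ 2 = 1 := by rcases hε with rfl | rfl <;> norm_num
  have e1 : -1 ≤ ε ∧ ε ≤ 1 := by omega
  have t1 : 3 * t ≤ q * t := by nlinarith
  have t2 : 3 * (q * t) ≤ q ^ 2 * t := by nlinarith
  have t3' : 3 * (q ^ 2 * t) ≤ q ^ 3 * t := by nlinarith
  have ky := key h
  have qp : 0 < q := by linarith
  have tp : 0 < t := by linarith
  have q1 : 0 < q - 1 := by linarith
  have D0 : 0 < q + 1 := by linarith
  have D1 : 0 < q ^ 2 - 1 := by linarith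
  have pA : 0 < q ^ 3 * t + ε := by linarith
  have pB : 0 < q ^ 2 * t - ε := by linarith
  have pC : 0 < q * t + ε := by linarith
  have pE : 0 < t - ε := by linarith
  have θp : 0 < θ := pos_of D0 hθ (by positivity)
  have θ0 : 0 < θ₀ := pos_of D0 h0 (by positivity)
  have fp : 0 < f := pos_of (mul_pos D0 D1) hf (by positivity)
  obtain ⟨m, hm, ha⟩ := a_form' (c := (q + 1) * (q ^ 2 - 1)) (d := -q ^ 3) (u := θ * (q + 1) + 1) ky (a0 h) hq (by linarith)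
    (by convert hc using 1; ring) hN ⟨q ^ 3 * t + ε - ε * q, by linear_combination h0 - e2⟩ (by ring) hf
    ⟨q ^ 4 * t + ε * q ^ 3 - ε * q ^ 2, by linear_combination -q ^ 3 * e2⟩
    ⟨(q ^ 2 * t - ε) * (q * t + ε) * (q ^ 4 * t - ε * q ^ 4 + ε * q),
      by linear_combination q ^ 3 * (q ^ 2 * t - ε) * (q * t + ε) * (hθ - e2)⟩
  have mp : 0 < m := by linarith
  by_cases hg : γ = 0
  · subst hg
    have lt := lt_zero h
    have bp := h.lt
    simp only [sub_zero, add_zero] at ha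
    have d0 : β ∣ 1 + m * (q ^ 2 * t) := ha ▸ (Dvd.intro _ rfl : β ∣ β * s).mul_left _
    have d1 : β ∣ (q - 1) * (q ^ 3 * t + ε) := by
      have : (q - 1) * (q ^ 3 * t + ε) = ε * (θ₀ - q ^ 2 * θ) :=
        mul_right_cancel₀ D0.ne' (by linear_combination (ε * q ^ 2) * hθ - ε * h0 - (q ^ 2 - 1) * (q ^ 3 * t + ε) * e2)
      exact ⟨ε * (k₁ - q ^ 2 * ρ), by linear_combination this - ε * q ^ 2 * h.h6 + ε * h.h5⟩
    have d2 : β ∣ (q - 1) * (q - ε * m) :=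
      (dvd_sub (d0.mul_left ((q - 1) * q)) (d1.mul_left m)).trans (dvd_of_eq (by ring))
    have l2 : (t - ε) * (1 + m * (q ^ 2 * t)) < β * (q + 1) * (q ^ 2 * t - ε) := by
      refine lt_of_mul_lt_mul_right (a := q ^ 3 * t + ε) ?_ pA.le
      have := mul_lt_mul_of_pos_right lt (mul_pos D0 D0)
      calc _ = θ * (β * s) * ((q + 1) * (q + 1)) := by rw [← ha]; linear_combination (-(q + 1) * (β * s)) * hθ
        _ < _ := this
        _ = _ := by linear_combination β * (q + 1) * h0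
    by_cases hs : q - ε * m = 0
    · obtain ⟨rfl, rfl⟩ : ε = 1 ∧ q = m := by rcases hε with rfl | rfl <;> omega
      have t4 : q ^ 4 ≤ t := ht.elim (fun e => by omega) (·.1)
      obtain ⟨n1, n2⟩ := special h (A := q ^ 2 * t - 1) (C := t - 1) hq
        (mul_right_cancel₀ D0.ne' (by linear_combination h0 - (q ^ 2 * t - 1) * ha))
        (mul_right_cancel₀ D0.ne' (by linear_combination hθ - (t - 1) * ha)) (by ring) (by linarith)
        (fun e => by rw [e] at ha; linarith)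
      have x0 : q ^ 4 * (q ^ 2 * t) ≤ q ^ 4 * (t * t) := by gcongr; linarith
      have x1 : f ≤ q ^ 4 * t := le_of_mul_le_mul_right (a := t) (by rcases n2 with n2 | n2 <;> linarith) tp
      have x2 : (q + 1) * (q ^ 2 - 1) ≤ 2 * q ^ 3 := by nlinarith
      have x3 : f * ((q + 1) * (q ^ 2 - 1)) ≤ q ^ 4 * t * (2 * q ^ 3) := by gcongr
      have x4 : q ^ 3 * (2 * q ^ 3) * (q * t) < q ^ 3 * (q ^ 2 * t - 1) * (q * t + 1) := by
        gcongr <;> linarith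
      linarith
    · have l1 : β ≤ (q - 1) * (q + m) := by
        refine (Int.le_of_dvd (abs_pos.2 (mul_ne_zero (by linarith) hs)) ((dvd_abs _ _).2 d2)).trans ?_
        rw [abs_mul, abs_of_pos (by linarith : 0 < q - 1)]
        gcongr
        rcases hε with rfl | rfl <;> rw [abs_le] <;> constructor <;> linarith
      have l3 : β * (q + 1) * (q ^ 2 * t - ε) ≤ (q - 1) * (q + m) * (q + 1) * (q ^ 2 * t + 1) := by gcongr; linarith
      rcases ht with ⟨rfl, rfl⟩ | ⟨t4, -⟩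
      · rcases (by omega : m = 1 ∨ 2 ≤ m) with rfl | m2
        · have d3 : β ∣ q ^ 4 - q ^ 3 + q ^ 2 - q + 1 :=
            ⟨s, mul_left_cancel₀ D0.ne' (by linear_combination -ha)⟩
          have d4 : β ∣ 2 * q - 3 := (dvd_sub (d2.mul_left (q ^ 2 - q + 2)) d3).trans (dvd_of_eq (by ring))
          have l4 := Int.le_of_dvd (by linarith) d4
          have l5 : β * (q + 1) * (q ^ 2 * q ^ 3 - -1) ≤ (2 * q - 3) * (q + 1) * (q ^ 2 * q ^ 3 - -1) := by gcongr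
          have l6 : (2 * q - 3) * (q + 1) * (q ^ 2 * q ^ 3 - -1) ≤ (q ^ 3 - -1) * (q ^ 2 * q ^ 3 - -1) := by
            gcongr; linarith
          linarith
        · obtain ⟨u, rfl⟩ : ∃ u, m = u + 2 := ⟨m - 2, by ring⟩
          obtain ⟨v, rfl⟩ : ∃ v, q = v + 3 := ⟨q - 3, by ring⟩
          have u0 : 0 ≤ u := by linarith
          have v0 : 0 ≤ v := by linarith
          have : 0 ≤ ((v + 3) ^ 3 - -1) * (1 + (u + 2) * ((v + 3) ^ 2 * (v + 3) ^ 3)) -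
              (v + 3 - 1) * (v + 3 + (u + 2)) * (v + 3 + 1) * ((v + 3) ^ 2 * (v + 3) ^ 3 + 1) := by
            ring_nf
            positivity
          linarith
      · have l4 : (t - 1) * (m * (q ^ 2 * t)) ≤ (t - ε) * (1 + m * (q ^ 2 * t)) := by gcongr <;> linarith
        have l5 : (q - 1) * (q + m) * (q + 1) * (q ^ 2 * t + 1) ≤ (2 * q ^ 3 * m) * (q ^ 2 * t + 1) := by
          refine mul_le_mul_of_nonneg_right ?_ (by positivity)
          have : q + m ≤ 2 * q * m := by nlinarith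
          calc (q - 1) * (q + m) * (q + 1) = (q ^ 2 - 1) * (q + m) := by ring
            _ ≤ q ^ 2 * (2 * q * m) := by gcongr; linarith
            _ = _ := by ring
        have l6 : (t - 1) * (q ^ 2 * t) < 2 * q ^ 3 * (q ^ 2 * t + 1) :=
          lt_of_mul_lt_mul_left (a := m) (by linarith) (by linarith)
        have l7 : 3 * q ^ 3 * (q ^ 2 * t) ≤ t * (q ^ 2 * t) := by gcongr; linarith
        have l8 : 27 * (q ^ 2 * t) ≤ q ^ 3 * (q ^ 2 * t) := by gcongr; linarith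
        have l9 : q ^ 3 * 3 ≤ q ^ 3 * (q ^ 2 * t) := by gcongr; linarith
        linarith
  · have bd := bound h hg θp.le fp.le
    have b1 : 4 * ((t - ε) ^ 4 * q ^ 6 * (q * t + ε) ^ 2) ≤
        (q ^ 3 * t + ε) * (q ^ 2 * t - ε) ^ 3 * ((q + 1) * (q ^ 2 - 1) ^ 2) := by
      refine le_of_mul_le_mul_right (a := (q ^ 2 * t - ε) ^ 2 * (q ^ 3 * t + ε) ^ 4) ?_ (by positivity)
      calc _ = 4 * (((q ^ 3 * t + ε) * (t - ε)) ^ 2 * (q ^ 3 * (q ^ 2 * t - ε) * (q * t + ε))) ^ 2 := by ring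
        _ = 4 * (θ ^ 2 * f) ^ 2 * ((q + 1) ^ 6 * (q ^ 2 - 1) ^ 2) := by rw [← hθ, ← hf]; ring
        _ ≤ θ₀ ^ 5 * ((q + 1) ^ 6 * (q ^ 2 - 1) ^ 2) := by gcongr
        _ = (θ₀ * (q + 1)) ^ 5 * ((q + 1) * (q ^ 2 - 1) ^ 2) := by ring
        _ = _ := by rw [h0]; ring
    have b2 : 4 * ((t - 1) ^ 4 * q ^ 6 * (q * (t - 1)) ^ 2) ≤ 4 * ((t - ε) ^ 4 * q ^ 6 * (q * t + ε) ^ 2) := by
      gcongr <;> nlinarith
    have b3 : (q ^ 3 * t + ε) * (q ^ 2 * t - ε) ^ 3 * ((q + 1) * (q ^ 2 - 1) ^ 2) ≤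
        (q ^ 3 * (t + 1)) * (q ^ 2 * (t + 1)) ^ 3 * ((q + 1) * (q ^ 2) ^ 2) := by
      gcongr <;> linarith
    have b4 := ineq6 (t := t) (c := q ^ 5 * (q + 1)) (by linarith) (by
      have : (q ^ 3) ^ 2 ≤ t ^ 2 := by gcongr
      have : q ^ 5 * 3 ≤ q ^ 5 * q := by gcongr
      linarith)
    have b5 := mul_lt_mul_of_pos_left b4 (by positivity : 0 < q ^ 8)
    linarith

theorem cop (c : ℤ) (n : ℕ) : IsCoprime (q ^ n) (q * c - 1) :=
  IsCoprime.pow_left ⟨c, -1, by ring⟩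

theorem par (q : ℤ) (k : ℕ) : ∃ ε : ℤ, (ε = 1 ∨ ε = -1) ∧ (-q) ^ k = ε * q ^ k ∧ (k = 0 → ε = 1) :=
  ⟨(-1) ^ k, neg_one_pow_eq_or ℤ k, neg_pow q k, by rintro rfl; rfl⟩

/-- n = k+7, constituent A -/
theorem numA (h : SN N θ₀ θ f k₁ k₂ μ ρ s β γ) (hq : 3 ≤ q) (hy : y = -q)
    (h0 : θ₀ * (y - 1) = (y ^ (k + 7) - 1) * (y ^ (k + 6) - 1))
    (hθ : θ * (y - 1) = (y ^ (k + 6) - 1) * (y ^ (k + 5) - 1))
    (hf : f * ((y - 1) * (y ^ 2 - 1)) = y ^ 2 * (y ^ (k + 7) - 1) * (y ^ (k + 4) - 1))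
    (hN : q ^ (k + 6) ∣ N) : False := by
  subst hy
  obtain ⟨ε, hε, e, -⟩ := par q k
  have e6 : q ^ (k + 6) = q ^ 2 * q ^ (k + 4) := by ring
  simp only [pow_add, e] at h0 hθ hf
  refine numA' (t := q ^ (k + 4)) (ε := ε) h hq hε (Or.inr (pow_le_pow_right₀ (by linarith) (by omega)))
    (by rw [← e6]; convert cop (q ^ 2 - 1) _ using 1; ring) ?_ ?_ ?_ (e6 ▸ hN) <;> rcases hε with rfl | rfl
  all_goals first | linear_combination -h0 | linear_combination -hθ | linear_combination -hf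

/-- n = 6, constituent A, γ = 0 -/
theorem numA6 (h : SN N θ₀ θ f k₁ k₂ μ ρ s β 0) (hq : 3 ≤ q)
    (h0 : θ₀ = (q ^ 3 - 1) * (q ^ 2 - q + 1) * (q ^ 5 + 1)) (hθ : θ = (q ^ 5 + 1) * (q - 1) * (q ^ 2 + 1))
    (hf : f = q ^ 2 * (q ^ 4 + q ^ 2 + 1) * (q ^ 2 - q + 1)) (hN : q ^ 5 ∣ N) : False := by
  have e6 : q ^ 5 = q ^ 2 * q ^ 3 := by ring
  exact numA' (t := q ^ 3) (ε := -1) h hq (Or.inr rfl) (Or.inl ⟨rfl, rfl⟩)
    (by rw [← e6]; convert cop (q ^ 2 - 1) _ using 1; ring) (by rw [h0]; ring) (by rw [hθ]; ring) (by rw [hf]; ring)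
    (e6 ▸ hN)

/-- n = k+6, constituent B -/
theorem numB (h : SN N θ₀ θ f k₁ k₂ μ ρ s β γ) (hq : 3 ≤ q) (hy : y = -q)
    (h0 : θ₀ * (y - 1) = (y ^ (k + 6) - 1) * (y ^ (k + 5) - 1))
    (hθ : θ * (y - 1) = (y ^ (k + 6) - 1) * (y ^ (k + 3) - 1))
    (hf : f * ((y - 1) * (y ^ 2 - 1)) = -y ^ 3 * (y ^ (k + 5) - 1) * (y ^ (k + 4) - 1))
    (hN : q ^ (k + 5) ∣ N) : False := by
  subst hy
  obtain ⟨ε, hε, e, e0⟩ := par q k
  have e6 : q ^ (k + 5) = q ^ 2 * q ^ (k + 3) := by ring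
  simp only [pow_add, e] at h0 hθ hf
  refine numB' (t := q ^ (k + 3)) (ε := -ε) h hq ?_
    (by rw [← e6]; convert cop (q - 1) _ using 1; ring) ?_ ?_ ?_ (e6 ▸ hN)
  · rcases k with _ | k
    · exact Or.inl ⟨rfl, by rw [e0 rfl]⟩
    · exact Or.inr ⟨pow_le_pow_right₀ (by linarith) (by omega), by omega⟩
  all_goals rcases hε with rfl | rfl
  all_goals first | linear_combination -h0 | linear_combination -hθ | linear_combination -hf

end Cfsg.Agent.L0.UN
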